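import Cfsg.Agent.Lib.Char.CyclicTI
import Cfsg.Agent.Lib.Char.CompleteCor
import Cfsg.Agent.Lib.Char.LinearChars
import Cfsg.Agent.Lib.Char.Ortho
import Cfsg.Agent.Lib.Char.Basic

/-!
# Restricting characters to a self-centralizing abelian subgroup

`ι : W → G` embeds the abelian group `W` so that the centralizer of any nonidentity element of
`ι W` is `ι W`.  We compute the inner products of the multiplicity functions `mm ι ψ l`.
-/

set_option autoImplicit false
set_option linter.unusedSectionVars false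
set_option linter.style.haveILetI false

namespace Cfsg.Agent.Lib.Rank3.CC1

open scoped ComplexConjugate BigOperators
open Cfsg Cfsg.Agent.Lib.Char.CyclicTI Cfsg.Agent.Lib.Char.CompleteCor Cfsg.Agent.Lib.Char.Basic

universe u v

section Dual

variable {W : Type v} [CommGroup W] [Fintype W] [Fintype (W →* ℂˣ)]

theorem sum_hom_of_ne {y : W} (hy : y ≠ 1) : ∑ φ : W →* ℂˣ, ((φ y : ℂˣ) : ℂ) = 0 := by
  classical
  have h := sum_trivialOn_of_notMem (⊥ : Subgroup W) (y := y) (by
    rwa [Subgroup.mem_bot])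
  have h2 : trivialOn (⊥ : Subgroup W) = Finset.univ := by
    ext φ
    simp [mem_trivialOn]
  rwa [h2] at h

theorem card_hom : Fintype.card (W →* ℂˣ) = Fintype.card W := by
  have hexp : NeZero ((Monoid.exponent W : ℕ) : ℂ) :=
    ⟨Nat.cast_ne_zero.2 Monoid.exponent_ne_zero_of_finite⟩
  have hroots : HasEnoughRootsOfUnity ℂ (Monoid.exponent W) := inferInstance
  have := CommGroup.card_monoidHom_of_hasEnoughRootsOfUnity W ℂ
  rwa [Nat.card_eq_fintype_card, Nat.card_eq_fintype_card] at this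

theorem sum_hom_one : ∑ φ : W →* ℂˣ, ((φ 1 : ℂˣ) : ℂ) = Fintype.card W := by
  simp [card_hom]

end Dual

section Main

variable {G : Type u} [Group G] [Fintype G] {W : Type v} [CommGroup W] [Fintype W]
  (ι : W →* G)

/-- The multiplicity of the linear character `l` in the restriction of `ψ`. -/
noncomputable def mm (ψ : G → ℂ) (l : W →* ℂˣ) : ℂ :=
  classInner (fun w => ψ (ι w)) (fun w => ((l w : ℂˣ) : ℂ))

theorem mm_def (ψ : G → ℂ) (l : W →* ℂˣ) :
    mm ι ψ l = (Fintype.card W : ℂ)⁻¹ * ∑ w : W, ψ (ι w) * conj ((l w : ℂˣ) : ℂ) := by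
  unfold mm classInner
  rw [Nat.card_eq_fintype_card]

theorem mm_nat {ψ : G → ℂ} (hψ : IsIrrCharacter G ψ) (l : W →* ℂˣ) : ∃ n : ℕ, mm ι ψ l = n := by
  have h1 : IsCharacter W (fun w => ψ (ι w)) :=
    isCharacter_comp_hom (isCharacter_of_isIrrCharacter hψ) ι
  have h2 : IsCharacter W (fun w => ((l w : ℂˣ) : ℂ)) :=
    isCharacter_of_isIrrCharacter (Cfsg.Agent.Lib.Char.LinearChars.isIrr_of_hom l)
  exact Cfsg.Agent.Lib.Char.Ortho.exists_nat_classInner_of_isCharacter h1 h2

theorem sum_mm [Fintype (W →* ℂˣ)] (ψ : G → ℂ) : ∑ l : W →* ℂˣ, mm ι ψ l = ψ 1 := by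
  classical
  have hW : (Fintype.card W : ℂ) ≠ 0 := Nat.cast_ne_zero.2 Fintype.card_ne_zero
  simp only [mm_def]
  rw [← Finset.mul_sum, Finset.sum_comm]
  have h1 : ∀ w : W, ∑ l : W →* ℂˣ, ψ (ι w) * conj ((l w : ℂˣ) : ℂ) =
      if w = 1 then ψ 1 * Fintype.card W else 0 := by
    intro w
    simp only [unit_conj]
    rw [← Finset.mul_sum]
    split_ifs with h
    · subst h
      rw [map_one, inv_one, sum_hom_one]
    · rw [sum_hom_of_ne (by simpa using h), mul_zero]
  simp only [h1]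
  rw [Finset.sum_ite_eq' Finset.univ (1 : W)]
  simp only [Finset.mem_univ, if_true]
  field_simp

/-- The group of automorphisms of `W` induced by conjugation. -/
def Gam : Subgroup (MulAut W) where
  carrier := {α | ∃ g : G, ∀ w : W, ι (α w) = g * ι w * g⁻¹}
  mul_mem' := by
    rintro α β ⟨g, hg⟩ ⟨h, hh⟩
    refine ⟨g * h, fun w => ?_⟩
    rw [MulAut.mul_apply, hg, hh]
    group
  one_mem' := ⟨1, fun w => by simp⟩
  inv_mem' := by
    rintro α ⟨g, hg⟩
    refine ⟨g⁻¹, fun w => ?_⟩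
    have h1 := hg (α⁻¹ w)
    have h2 : α (α⁻¹ w) = w := by
      rw [← MulAut.mul_apply, mul_inv_cancel, MulAut.one_apply]
    rw [h2] at h1
    rw [h1]
    group

theorem mem_Gam {α : MulAut W} : α ∈ Gam ι ↔ ∃ g : G, ∀ w : W, ι (α w) = g * ι w * g⁻¹ := Iff.rfl

/-- Self-centralizing abelian data. -/
structure CC : Prop where
  inj : Function.Injective ι
  cc : ∀ w : W, w ≠ 1 → ∀ g : G, g * ι w = ι w * g → ∃ c : W, ι c = g

variable {ι}

theorem CC.ne_one (h : CC ι) {w : W} (hw : w ≠ 1) : ι w ≠ 1 := by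
  intro h1
  apply hw
  apply h.inj
  rw [h1, map_one]

/-- Conjugate elements of `W` are conjugate under `Gam`. -/
theorem CC.exists_gam (h : CC ι) {w w' : W} (hw : w ≠ 1) (hw' : w' ≠ 1) {g : G}
    (hg : g * ι w * g⁻¹ = ι w') : ∃ α ∈ Gam ι, α w = w' := by
  classical
  have hex : ∀ c : W, ∃ d : W, ι d = g * ι c * g⁻¹ := by
    intro c
    apply h.cc w' hw'
    rw [← hg]
    have hcomm : ι c * ι w = ι w * ι c := by
      rw [← map_mul, ← map_mul, mul_comm]
    calc g * ι c * g⁻¹ * (g * ι w * g⁻¹) = g * (ι c * ι w) * g⁻¹ := by group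
      _ = g * (ι w * ι c) * g⁻¹ := by rw [hcomm]
      _ = g * ι w * g⁻¹ * (g * ι c * g⁻¹) := by group
  choose f hf using hex
  have hmul : ∀ a b, f (a * b) = f a * f b := by
    intro a b
    apply h.inj
    rw [hf, map_mul, map_mul, hf, hf]
    group
  have hinj : Function.Injective f := by
    intro a b hab
    apply h.inj
    have h1 := hf a
    rw [hab, hf b] at h1
    have h2 : ι b = ι a := by
      have := congrArg (fun x => g⁻¹ * x * g) h1
      simpa [mul_assoc] using this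
    exact h2.symm
  have hbij : Function.Bijective f := Finite.injective_iff_bijective.1 hinj
  let α : MulAut W := MulEquiv.ofBijective (MonoidHom.mk' f hmul) hbij
  have hα : ∀ c, α c = f c := fun c => rfl
  refine ⟨α, ⟨g, fun c => ?_⟩, ?_⟩
  · rw [hα, hf]
  · apply h.inj
    rw [hα, hf, hg]

/-- The action of `Gam` on `W \ {1}` is free. -/
theorem CC.eq_one_of_fix (h : CC ι) {α : MulAut W} (hα : α ∈ Gam ι) {w : W} (hw : w ≠ 1)
    (hfix : α w = w) : α = 1 := by
  obtain ⟨g, hg⟩ := hα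
  have h1 : g * ι w = ι w * g := by
    have := hg w
    rw [hfix] at this
    calc g * ι w = g * ι w * g⁻¹ * g := by group
      _ = ι w * g := by rw [← this]
  obtain ⟨c, hc⟩ := h.cc w hw g h1
  ext v
  apply h.inj
  rw [hg, ← hc, MulAut.one_apply, ← map_inv, ← map_mul, ← map_mul, mul_comm c v,
    mul_inv_cancel_right]

/-- A fixed character of a nontrivial element of `Gam` is trivial. -/
theorem CC.char_eq_one (h : CC ι) {α : MulAut W} (hα : α ∈ Gam ι) (hne : α ≠ 1) (l : W →* ℂˣ)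
    (hl : l.comp α.toMonoidHom = l) : l = 1 := by
  let f : W →* W := (α.toMonoidHom) / (MonoidHom.id W)
  have hf : ∀ w, f w = α w * w⁻¹ := fun w => by
    simp [f, div_eq_mul_inv]
  have hinj : Function.Injective f := by
    rw [injective_iff_map_eq_one]
    intro a ha
    rw [hf, mul_inv_eq_one] at ha
    by_contra ha1
    exact hne (h.eq_one_of_fix hα ha1 ha)
  have hsurj : Function.Surjective f := Finite.injective_iff_surjective.1 hinj
  ext w
  obtain ⟨c, rfl⟩ := hsurj w
  rw [hf, map_mul, map_inv]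
  have h1 : l (α c) = l c := by
    have := DFunLike.congr_fun hl c
    simpa using this
  rw [h1]
  simp

variable [Fintype (IrrCharacter G)]

open Classical in
/-- Column orthogonality in one formula. -/
theorem col_eq (g h : G) : ∑ χ : IrrCharacter G, (χ : G → ℂ) g * conj ((χ : G → ℂ) h) =
    if IsConj g h then (Nat.card (Subgroup.centralizer ({g} : Set G)) : ℂ) else 0 := by
  split_ifs with hc
  · exact column_orth_conj hc
  · exact column_orth_not_conj hc

/-- The centralizer of a nonidentity element of `W`. -/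
theorem CC.card_cent (h : CC ι) {w : W} (hw : w ≠ 1) :
    Nat.card (Subgroup.centralizer ({ι w} : Set G)) = Fintype.card W := by
  have h1 : Subgroup.centralizer ({ι w} : Set G) = ι.range := by
    ext g
    rw [Subgroup.mem_centralizer_singleton_iff]
    constructor
    · intro hg
      obtain ⟨c, hc⟩ := h.cc w hw g hg
      exact ⟨c, hc⟩
    · rintro ⟨c, rfl⟩
      rw [← map_mul, ← map_mul, mul_comm]
  rw [h1, Nat.card_congr (MonoidHom.ofInjective h.inj).symm.toEquiv, Nat.card_eq_fintype_card]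

variable [Fintype (Gam ι)]

open Classical in
/-- Summing over the conjugates of `w` in `W`. -/
theorem CC.sum_conj (h : CC ι) {w : W} (hw : w ≠ 1) (f : W → ℂ) :
    ∑ w' : W, (if IsConj (ι w) (ι w') then f w' else 0) = ∑ α : Gam ι, f ((α : MulAut W) w) := by
  rw [← Finset.sum_filter]
  symm
  refine Finset.sum_bij (fun α _ => (α : MulAut W) w) ?_ ?_ ?_ ?_
  · intro α _
    rw [Finset.mem_filter]
    refine ⟨Finset.mem_univ _, ?_⟩
    obtain ⟨g, hg⟩ := α.2
    rw [hg]
    exact isConj_iff.2 ⟨g, rfl⟩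
  · intro α _ β _ hab
    have h1 : ((β : MulAut W)⁻¹ * (α : MulAut W)) w = w := by
      rw [MulAut.mul_apply]
      have h2 : (α : MulAut W) w = (β : MulAut W) w := hab
      rw [h2, ← MulAut.mul_apply, inv_mul_cancel, MulAut.one_apply]
    have h3 := h.eq_one_of_fix ((Gam ι).mul_mem ((Gam ι).inv_mem β.2) α.2) hw h1
    apply Subtype.ext
    exact (inv_mul_eq_one.1 h3).symm
  · intro w' hw'
    rw [Finset.mem_filter] at hw'
    obtain ⟨g, hg⟩ := isConj_iff.1 hw'.2
    have hw'1 : w' ≠ 1 := by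
      rintro rfl
      rw [map_one] at hg
      apply h.ne_one hw
      have := congrArg (fun x => g⁻¹ * x * g) hg
      simpa [mul_assoc] using this
    obtain ⟨α, hα, hαw⟩ := h.exists_gam hw hw'1 hg
    exact ⟨⟨α, hα⟩, Finset.mem_univ _, hαw⟩
  · intro α _
    rfl

open Classical in
/-- The inner product of the multiplicity functions. -/
theorem CC.sum_mm_mul_conj (h : CC ι) (l m : W →* ℂˣ) :
    ∑ ψ : IrrCharacter G, mm ι (ψ : G → ℂ) l * conj (mm ι (ψ : G → ℂ) m) =
      (Fintype.card G : ℂ) / (Fintype.card W : ℂ) ^ 2 -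
        (Fintype.card (Gam ι) : ℂ) / (Fintype.card W : ℂ) +
        ∑ α : Gam ι, if m.comp (α : MulAut W).toMonoidHom = l then (1 : ℂ) else 0 := by
  have hW : (Fintype.card W : ℂ) ≠ 0 := Nat.cast_ne_zero.2 Fintype.card_ne_zero
  -- expand
  have h1 : ∀ ψ : IrrCharacter G, mm ι (ψ : G → ℂ) l * conj (mm ι (ψ : G → ℂ) m) =
      ((Fintype.card W : ℂ) ^ 2)⁻¹ * ∑ w : W, ∑ w' : W, conj ((l w : ℂˣ) : ℂ) * ((m w' : ℂˣ) : ℂ) *
        ((ψ : G → ℂ) (ι w) * conj ((ψ : G → ℂ) (ι w'))) := by
    intro ψ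
    rw [mm_def, mm_def, map_mul, map_sum, map_inv₀, Complex.conj_natCast]
    simp only [map_mul, Complex.conj_conj]
    rw [sq, mul_inv, mul_mul_mul_comm, Finset.sum_mul_sum]
    congr 1
    refine Finset.sum_congr rfl fun w _ => Finset.sum_congr rfl fun w' _ => ?_
    ring
  simp only [h1]
  rw [← Finset.mul_sum, Finset.sum_comm]
  have h2 : ∀ w : W, ∑ ψ : IrrCharacter G, ∑ w' : W,
      conj ((l w : ℂˣ) : ℂ) * ((m w' : ℂˣ) : ℂ) *
        ((ψ : G → ℂ) (ι w) * conj ((ψ : G → ℂ) (ι w'))) =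
      ∑ w' : W, conj ((l w : ℂˣ) : ℂ) * ((m w' : ℂˣ) : ℂ) *
        (if IsConj (ι w) (ι w') then (Nat.card (Subgroup.centralizer ({ι w} : Set G)) : ℂ) else 0) := by
    intro w
    rw [Finset.sum_comm]
    refine Finset.sum_congr rfl fun w' _ => ?_
    rw [← Finset.mul_sum, col_eq]
  simp only [h2]
  -- the terms
  have h3 : ∀ w : W, w ≠ 1 → ∑ w' : W, conj ((l w : ℂˣ) : ℂ) * ((m w' : ℂˣ) : ℂ) *
        (if IsConj (ι w) (ι w') then (Nat.card (Subgroup.centralizer ({ι w} : Set G)) : ℂ) else 0) =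
      (Fintype.card W : ℂ) * ∑ α : Gam ι, conj ((l w : ℂˣ) : ℂ) * ((m ((α : MulAut W) w) : ℂˣ) : ℂ) := by
    intro w hw
    rw [h.card_cent hw, Finset.mul_sum,
      ← h.sum_conj hw (fun w' => (Fintype.card W : ℂ) * (conj ((l w : ℂˣ) : ℂ) * ((m w' : ℂˣ) : ℂ)))]
    refine Finset.sum_congr rfl fun w' _ => ?_
    split_ifs <;> ring
  have h4 : ∑ w' : W, conj ((l 1 : ℂˣ) : ℂ) * ((m w' : ℂˣ) : ℂ) *
        (if IsConj (ι 1) (ι w') then (Nat.card (Subgroup.centralizer ({ι 1} : Set G)) : ℂ) else 0) =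
      (Fintype.card G : ℂ) := by
    rw [Finset.sum_eq_single (1 : W)]
    · have hc1 : Nat.card (Subgroup.centralizer ({ι 1} : Set G)) = Fintype.card G := by
        have h9 : Subgroup.centralizer ({ι 1} : Set G) = ⊤ := by
          rw [eq_top_iff]
          intro g _
          rw [Subgroup.mem_centralizer_singleton_iff, map_one, one_mul, mul_one]
        rw [h9, Subgroup.card_top, Nat.card_eq_fintype_card]
      rw [if_pos (IsConj.refl _), hc1]
      simp
    · intro w' _ hw'
      have : ¬ IsConj (ι 1) (ι w') := by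
        intro hc
        rw [map_one] at hc
        have h5 := isConj_one_right.1 hc
        exact h.ne_one hw' h5
      rw [if_neg this, mul_zero]
    · simp
  -- orthogonality
  have h5 : ∀ α : Gam ι, ∑ w : W, conj ((l w : ℂˣ) : ℂ) * ((m ((α : MulAut W) w) : ℂˣ) : ℂ) =
      (Fintype.card W : ℂ) * (if m.comp (α : MulAut W).toMonoidHom = l then (1 : ℂ) else 0) := by
    intro α
    have h6 := classInner_unit (m.comp (α : MulAut W).toMonoidHom) l
    unfold classInner at h6
    rw [Nat.card_eq_fintype_card] at h6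
    have h7 : ∑ w : W, ((m.comp (α : MulAut W).toMonoidHom w : ℂˣ) : ℂ) * conj ((l w : ℂˣ) : ℂ) =
        (Fintype.card W : ℂ) * @ite ℂ (m.comp (α : MulAut W).toMonoidHom = l)
          (Classical.propDecidable _) 1 0 := by
      rw [← h6]
      field_simp
    have h8 : ∀ w : W, conj ((l w : ℂˣ) : ℂ) * ((m ((α : MulAut W) w) : ℂˣ) : ℂ) =
        ((m.comp (α : MulAut W).toMonoidHom w : ℂˣ) : ℂ) * conj ((l w : ℂˣ) : ℂ) := by
      intro w
      rw [mul_comm]
      rfl
    simp only [h8]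
    rw [h7]
    congr 2
  rw [← Finset.add_sum_erase Finset.univ _ (Finset.mem_univ (1 : W)), h4]
  have h6 : ∑ w ∈ Finset.univ.erase (1 : W), ∑ w' : W, conj ((l w : ℂˣ) : ℂ) * ((m w' : ℂˣ) : ℂ) *
        (if IsConj (ι w) (ι w') then (Nat.card (Subgroup.centralizer ({ι w} : Set G)) : ℂ) else 0) =
      (Fintype.card W : ℂ) * ∑ w ∈ Finset.univ.erase (1 : W), ∑ α : Gam ι,
        conj ((l w : ℂˣ) : ℂ) * ((m ((α : MulAut W) w) : ℂˣ) : ℂ) := by
    rw [Finset.mul_sum]
    refine Finset.sum_congr rfl fun w hw => ?_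
    exact h3 w (Finset.mem_erase.1 hw).1
  rw [h6, Finset.sum_comm]
  have h7 : ∀ α : Gam ι, ∑ w ∈ Finset.univ.erase (1 : W),
      conj ((l w : ℂˣ) : ℂ) * ((m ((α : MulAut W) w) : ℂˣ) : ℂ) =
      (Fintype.card W : ℂ) * (if m.comp (α : MulAut W).toMonoidHom = l then (1 : ℂ) else 0) - 1 := by
    intro α
    rw [← h5 α, ← Finset.add_sum_erase Finset.univ _ (Finset.mem_univ (1 : W))]
    simp
  simp only [h7]
  rw [Finset.sum_sub_distrib, ← Finset.mul_sum]
  simp only [Finset.sum_const, Finset.card_univ, nsmul_eq_mul, mul_one]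
  field_simp
  ring

end Main

end Cfsg.Agent.Lib.Rank3.CC1
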