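import Cfsg.Agent.Lib.Rank3.CC1
import Cfsg.Agent.Lib.Char.Burnside2
import Cfsg.Agent.Lib.Char.PResChars

/-!
# The permutation character on the cosets of a complement of a self-centralizing abelian subgroup
-/

set_option autoImplicit false
set_option linter.unusedSectionVars false
set_option linter.style.haveILetI false

namespace Cfsg.Agent.Lib.Rank3.CC2

open scoped ComplexConjugate BigOperators
open Cfsg Cfsg.Agent.Lib.Char.CyclicTI Cfsg.Agent.Lib.Char.CompleteCor Cfsg.Agent.Lib.Char.Basic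
  Cfsg.Agent.Lib.Rank3.CC1

universe u v

section Comb

variable {Ψ L : Type*} [Fintype Ψ] [Fintype L]

/-- The combinatorics of the multiplicities. -/
theorem comb (n : Ψ → ℕ) (m : Ψ → L → ℕ) (one : Ψ) (e : L) (R : L → L → Prop)
    (H1 : ∀ l, ∑ ψ, n ψ * m ψ l = 1) (hone : n one = 1) (hone' : m one e = 1)
    (Hself : ∀ l l', l ≠ e → l' ≠ e → ∑ ψ, m ψ l * m ψ l = ∑ ψ, m ψ l' * m ψ l')
    (Hcross : ∀ l l', l ≠ e → l' ≠ e → ¬ R l l' → ∑ ψ, m ψ l * m ψ l' + 1 = ∑ ψ, m ψ l * m ψ l)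
    (Hinv : ∀ l l', R l l' → ∀ ψ, m ψ l = m ψ l')
    (ψ : Ψ) (hψ : ψ ≠ one) (hn : n ψ ≠ 0) :
    (∀ l, m ψ l ≤ 1) ∧ m ψ e = 0 ∧
      ((∀ l, l ≠ e → m ψ l ≠ 0) ∨ (∀ l l', m ψ l ≠ 0 → m ψ l' ≠ 0 → R l l')) := by
  classical
  have hle : ∀ χ, n χ ≠ 0 → ∀ l, m χ l ≤ 1 := by
    intro χ hχ l
    have h1 : n χ * m χ l ≤ ∑ ψ, n ψ * m ψ l :=
      Finset.single_le_sum (f := fun ψ => n ψ * m ψ l) (fun _ _ => Nat.zero_le _) (Finset.mem_univ χ)
    rw [H1] at h1
    have h2 : 1 ≤ n χ := Nat.one_le_iff_ne_zero.2 hχ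
    nlinarith
  have hex : ∀ χ χ', χ ≠ χ' → n χ ≠ 0 → n χ' ≠ 0 → ∀ l, m χ l ≠ 0 → m χ' l = 0 := by
    intro χ χ' hne hχ hχ' l hl
    by_contra hl'
    have h1 : n χ * m χ l + n χ' * m χ' l ≤ ∑ ψ, n ψ * m ψ l := by
      calc n χ * m χ l + n χ' * m χ' l = ∑ ψ ∈ {χ, χ'}, n ψ * m ψ l :=
            (Finset.sum_pair (f := fun ψ => n ψ * m ψ l) hne).symm
        _ ≤ _ := Finset.sum_le_sum_of_subset_of_nonneg (Finset.subset_univ _) (fun _ _ _ => Nat.zero_le _)
    rw [H1] at h1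
    have h2 : 1 ≤ n χ * m χ l := Nat.one_le_iff_ne_zero.2 (mul_ne_zero hχ hl)
    have h3 : 1 ≤ n χ' * m χ' l := Nat.one_le_iff_ne_zero.2 (mul_ne_zero hχ' hl')
    omega
  have hone0 : n one ≠ 0 := by rw [hone]; norm_num
  have hme : m ψ e = 0 := hex one ψ (Ne.symm hψ) hone0 hn e (by rw [hone']; norm_num)
  refine ⟨hle ψ hn, hme, ?_⟩
  by_cases hall : ∀ l, l ≠ e → m ψ l ≠ 0
  · exact Or.inl hall
  right
  push Not at hall
  obtain ⟨μ, hμe, hμ⟩ := hall
  -- the constituent containing `μ`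
  obtain ⟨ψ', -, hψ'⟩ : ∃ ψ' ∈ Finset.univ, n ψ' * m ψ' μ ≠ 0 :=
    Finset.exists_ne_zero_of_sum_ne_zero (by rw [H1]; norm_num)
  have hn' : n ψ' ≠ 0 := left_ne_zero_of_mul hψ'
  have hm' : m ψ' μ ≠ 0 := right_ne_zero_of_mul hψ'
  have hne : ψ ≠ ψ' := by
    rintro rfl
    exact hm' hμ
  have hm'1 : m ψ' μ = 1 := by
    have := hle ψ' hn' μ
    omega
  -- differences
  have hdiff : ∀ l, m ψ l ≠ 0 → m ψ' l = 0 ∧ ∀ χ, χ ≠ ψ → χ ≠ ψ' → m χ l = m χ μ := by
    intro l hl
    have hl0 : m ψ' l = 0 := hex ψ ψ' hne hn hn' l hl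
    refine ⟨hl0, ?_⟩
    have hle0 : l ≠ e := by
      rintro rfl
      exact hl hme
    have hnR : ¬ R l μ := fun hR => hl ((Hinv l μ hR ψ).trans hμ)
    have hc := Hcross l μ hle0 hμe hnR
    have hs := Hself l μ hle0 hμe
    have hl1 : m ψ l = 1 := by
      have := hle ψ hn l
      omega
    have hsum : ∑ χ, ((m χ l : ℤ) - m χ μ) ^ 2 = 2 := by
      have h1 : ∀ χ, ((m χ l : ℤ) - m χ μ) ^ 2 =
          ((m χ l * m χ l : ℕ) : ℤ) + ((m χ μ * m χ μ : ℕ) : ℤ) - 2 * ((m χ l * m χ μ : ℕ) : ℤ) := by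
        intro χ
        push_cast
        ring
      simp only [h1]
      rw [Finset.sum_sub_distrib, Finset.sum_add_distrib, ← Finset.mul_sum]
      rw [← Nat.cast_sum, ← Nat.cast_sum, ← Nat.cast_sum]
      have hc' : ((∑ ψ, m ψ l * m ψ μ : ℕ) : ℤ) + 1 = ((∑ ψ, m ψ l * m ψ l : ℕ) : ℤ) := by
        exact_mod_cast hc
      have hs' : ((∑ ψ, m ψ l * m ψ l : ℕ) : ℤ) = ((∑ ψ, m ψ μ * m ψ μ : ℕ) : ℤ) := by
        exact_mod_cast hs
      rw [← hs', ← hc']
      ring
    intro χ h1 h2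
    by_contra hne2
    have h3 : 1 ≤ ((m χ l : ℤ) - m χ μ) ^ 2 := by
      have h4 : (m χ l : ℤ) - m χ μ ≠ 0 := by
        intro h5
        apply hne2
        have : (m χ l : ℤ) = m χ μ := by linarith
        exact_mod_cast this
      have := sq_pos_of_ne_zero h4
      omega
    have h6 : ∑ χ' ∈ ({ψ, ψ', χ} : Finset Ψ), ((m χ' l : ℤ) - m χ' μ) ^ 2 ≤
        ∑ χ', ((m χ' l : ℤ) - m χ' μ) ^ 2 :=
      Finset.sum_le_sum_of_subset_of_nonneg (Finset.subset_univ _) (fun _ _ _ => sq_nonneg _)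
    rw [hsum, Finset.sum_insert (by
        simp only [Finset.mem_insert, Finset.mem_singleton]
        rintro (h7 | h7)
        · exact hne h7
        · exact h1 h7.symm),
      Finset.sum_insert (by
        simp only [Finset.mem_singleton]
        exact fun h7 => h2 h7.symm), Finset.sum_singleton, hl1, hμ, hl0, hm'1] at h6
    norm_num at h6
    omega
  intro l l' hl hl'
  by_contra hnR
  obtain ⟨hl0, hl2⟩ := hdiff l hl
  obtain ⟨hl'0, hl'2⟩ := hdiff l' hl'
  have hle0 : l ≠ e := by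
    rintro rfl
    exact hl hme
  have hle0' : l' ≠ e := by
    rintro rfl
    exact hl' hme
  have hc := Hcross l l' hle0 hle0' hnR
  have heq : ∀ χ, m χ l' = m χ l := by
    intro χ
    by_cases h1 : χ = ψ
    · subst h1
      have := hle χ hn l
      have := hle χ hn l'
      omega
    by_cases h2 : χ = ψ'
    · subst h2
      rw [hl0, hl'0]
    rw [hl2 χ h1 h2, hl'2 χ h1 h2]
  simp only [heq] at hc
  omega

end Comb

section Main

variable {G : Type u} [Group G] [Fintype G] [Fintype (IrrCharacter G)] (A : Subgroup G) [Fintype A]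

/-- The multiplicity of `ψ` in the permutation character on the cosets of `A`. -/
noncomputable def nn (ψ : G → ℂ) : ℂ := classInner (fun _ : A => (1 : ℂ)) (fun a : A => ψ a)

theorem nn_def (ψ : G → ℂ) : nn A ψ = (Fintype.card A : ℂ)⁻¹ * ∑ a : A, conj (ψ a) := by
  unfold nn classInner
  rw [Nat.card_eq_fintype_card]
  simp

theorem nn_nat {ψ : G → ℂ} (hψ : IsIrrCharacter G ψ) : ∃ n : ℕ, nn A ψ = n :=
  Cfsg.Agent.Lib.Char.Ortho.exists_nat_classInner_of_isCharacter (isCharacter_one)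
    (isCharacter_restrict (isCharacter_of_isIrrCharacter hψ) A)

open Classical in
/-- The permutation character. -/
theorem pi_formula (h : G) : ∑ ψ : IrrCharacter G, nn A (ψ : G → ℂ) * (ψ : G → ℂ) h =
    (Fintype.card A : ℂ)⁻¹ * ∑ a : A,
      if IsConj h (a : G) then (Nat.card (Subgroup.centralizer ({h} : Set G)) : ℂ) else 0 := by
  simp only [nn_def, ← col_eq]
  rw [Finset.mul_sum (a := (Fintype.card A : ℂ)⁻¹)]
  simp only [Finset.mul_sum, Finset.sum_mul]
  rw [Finset.sum_comm]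
  refine Finset.sum_congr rfl fun a _ => Finset.sum_congr rfl fun ψ _ => ?_
  ring

/-- The trivial character. -/
noncomputable def oneIrr : IrrCharacter G := ⟨fun _ => 1, Cfsg.Agent.Lib.Char.Burnside2.isIrrCharacter_one⟩

theorem nn_one : nn A ((oneIrr : IrrCharacter G) : G → ℂ) = 1 := by
  have hA : (Fintype.card A : ℂ) ≠ 0 := Nat.cast_ne_zero.2 Fintype.card_ne_zero
  rw [nn_def]
  simp [oneIrr]

end Main

section Main2

variable {G : Type u} [Group G] [Fintype G] [Fintype (IrrCharacter G)] {A : Subgroup G} [Fintype A]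
  {W : Type v} [CommGroup W] [Fintype W] {ι : W →* G}

/-- The multiplicities sum to one. -/
theorem sum_nn_mm (hA : ∀ w : W, w ≠ 1 → ∀ a : A, ¬ IsConj (ι w) (a : G))
    (hcard : Fintype.card A * Fintype.card W = Fintype.card G) (l : W →* ℂˣ) :
    ∑ ψ : IrrCharacter G, nn A (ψ : G → ℂ) * mm ι (ψ : G → ℂ) l = 1 := by
  classical
  have hW : (Fintype.card W : ℂ) ≠ 0 := Nat.cast_ne_zero.2 Fintype.card_ne_zero
  have hAne : (Fintype.card A : ℂ) ≠ 0 := Nat.cast_ne_zero.2 Fintype.card_ne_zero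
  simp only [mm_def]
  have h1 : ∀ ψ : IrrCharacter G, nn A (ψ : G → ℂ) * ((Fintype.card W : ℂ)⁻¹ *
      ∑ w : W, (ψ : G → ℂ) (ι w) * conj ((l w : ℂˣ) : ℂ)) =
      (Fintype.card W : ℂ)⁻¹ * ∑ w : W, conj ((l w : ℂˣ) : ℂ) *
        (nn A (ψ : G → ℂ) * (ψ : G → ℂ) (ι w)) := by
    intro ψ
    rw [mul_left_comm, Finset.mul_sum (a := nn A (ψ : G → ℂ))]
    congr 1
    refine Finset.sum_congr rfl fun w _ => ?_
    ring
  simp only [h1]
  rw [← Finset.mul_sum, Finset.sum_comm]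
  simp only [← Finset.mul_sum]
  simp only [pi_formula]
  rw [Finset.sum_eq_single (1 : W)]
  · have h2 : ∑ a : A, (if IsConj (ι 1) (a : G) then
        (Nat.card (Subgroup.centralizer ({ι 1} : Set G)) : ℂ) else 0) = (Fintype.card G : ℂ) := by
      rw [Finset.sum_eq_single (1 : A)]
      · have hc1 : Nat.card (Subgroup.centralizer ({ι 1} : Set G)) = Fintype.card G := by
          have h9 : Subgroup.centralizer ({ι 1} : Set G) = ⊤ := by
            rw [eq_top_iff]
            intro g _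
            rw [Subgroup.mem_centralizer_singleton_iff, map_one, one_mul, mul_one]
          rw [h9, Subgroup.card_top, Nat.card_eq_fintype_card]
        rw [if_pos (by simp), hc1]
      · intro a _ ha
        rw [if_neg]
        rw [map_one, isConj_one_right]
        exact fun h3 => ha (Subtype.ext h3)
      · simp
    rw [h2, ← hcard]
    simp
  · intro w _ hw
    have h3 : ∑ a : A, (if IsConj (ι w) (a : G) then
        (Nat.card (Subgroup.centralizer ({ι w} : Set G)) : ℂ) else 0) = 0 :=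
      Finset.sum_eq_zero (fun a _ => if_neg (hA w hw a))
    rw [h3]
    simp
  · simp

/-- The Bezout-free coprimality of `Gam` and `W`. -/
theorem coprime_gam (h : CC ι) [Fintype (Gam ι)] :
    Nat.Coprime (Fintype.card (Gam ι)) (Fintype.card W) := by
  classical
  by_contra hnc
  obtain ⟨p, hp, hp1, hp2⟩ := Nat.Prime.not_coprime_iff_dvd.1 hnc
  haveI : Fact p.Prime := ⟨hp⟩
  obtain ⟨α, hα⟩ := exists_prime_orderOf_dvd_card p hp1
  have hαo : orderOf (α : MulAut W) = p := by rw [Subgroup.orderOf_coe, hα]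
  let H : Subgroup (MulAut W) := Subgroup.zpowers (α : MulAut W)
  have hHp : IsPGroup p H := by
    apply IsPGroup.of_card (n := 1)
    rw [Nat.card_zpowers, hαo, pow_one]
  have hfix : Nat.card (MulAction.fixedPoints H W) = 1 := by
    rw [Nat.card_eq_one_iff_unique]
    refine ⟨⟨?_⟩, ⟨⟨1, ?_⟩⟩⟩
    · rintro ⟨a, ha⟩ ⟨b, hb⟩
      have key : ∀ c ∈ MulAction.fixedPoints H W, c = 1 := by
        intro c hc
        by_contra hc1
        have h1 : (α : MulAut W) c = c := hc ⟨(α : MulAut W), Subgroup.mem_zpowers _⟩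
        have h2 := h.eq_one_of_fix α.2 hc1 h1
        rw [h2, orderOf_one] at hαo
        exact hp.one_lt.ne hαo
      apply Subtype.ext
      show a = b
      rw [key a ha, key b hb]
    · intro g
      show (g : MulAut W) 1 = 1
      exact map_one _
  have hmod := hHp.card_modEq_card_fixedPoints W
  rw [hfix, Nat.card_eq_fintype_card] at hmod
  have h0 : Fintype.card W ≡ 0 [MOD p] := (Nat.modEq_zero_iff_dvd).2 hp2
  have h3 : p ∣ 1 := (Nat.modEq_zero_iff_dvd).1 (hmod.symm.trans h0)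
  exact hp.one_lt.ne' (Nat.dvd_one.1 h3)

/-- Multiplicities are invariant under `Gam`. -/
theorem mm_comp {ψ : G → ℂ} (hψ : IsClassFunction G ψ) {α : MulAut W} (hα : α ∈ Gam ι)
    (l : W →* ℂˣ) : mm ι ψ (l.comp α.toMonoidHom) = mm ι ψ l := by
  obtain ⟨g, hg⟩ := hα
  rw [mm_def, mm_def]
  congr 1
  rw [← Equiv.sum_comp (α.toEquiv : W ≃ W) (fun w => ψ (ι w) * conj ((l w : ℂˣ) : ℂ))]
  refine Finset.sum_congr rfl fun w _ => ?_
  have h1 : ψ (ι (α w)) = ψ (ι w) := by
    rw [hg, hψ]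
  show ψ (ι w) * conj ((l (α w) : ℂˣ) : ℂ) = ψ (ι (α w)) * conj ((l (α w) : ℂˣ) : ℂ)
  rw [h1]

open Classical in
/-- The degree of a nontrivial constituent of the permutation character is prime to `|W|`. -/
theorem deg_coprime (h : CC ι) (hA : ∀ w : W, w ≠ 1 → ∀ a : A, ¬ IsConj (ι w) (a : G))
    (hcard : Fintype.card A * Fintype.card W = Fintype.card G) (ψ : IrrCharacter G)
    (hψ : ψ ≠ oneIrr) (hn : nn A (ψ : G → ℂ) ≠ 0) :
    ∃ d : ℕ, (ψ : G → ℂ) 1 = d ∧ Nat.Coprime d (Fintype.card W) := by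
  haveI : Finite (W →* ℂˣ) := Cfsg.Agent.Lib.Char.PResChars.finite_hom W
  haveI : Fintype (W →* ℂˣ) := Fintype.ofFinite _
  haveI : Finite (MulAut W) := Finite.of_injective (fun α : MulAut W => (α.toEquiv : W ≃ W))
    (fun a b hab => by
      ext w
      exact congrArg (fun e : W ≃ W => e w) hab)
  haveI : Fintype (Gam ι) := Fintype.ofFinite _
  choose nN hnN using fun χ : IrrCharacter G => nn_nat A χ.2
  choose mN hmN using fun (χ : IrrCharacter G) (l : W →* ℂˣ) => mm_nat ι χ.2 l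
  have H1 : ∀ l, ∑ χ, nN χ * mN χ l = 1 := by
    intro l
    have h1 := sum_nn_mm hA hcard l
    simp only [hnN, hmN] at h1
    exact_mod_cast h1
  have hnone : nN oneIrr = 1 := by
    have := hnN oneIrr
    rw [nn_one] at this
    exact_mod_cast this.symm
  have hmone : mN oneIrr 1 = 1 := by
    have h1 := hmN oneIrr 1
    have h2 : mm ι ((oneIrr : IrrCharacter G) : G → ℂ) (1 : W →* ℂˣ) = 1 := by
      unfold mm
      have h3 := classInner_unit (1 : W →* ℂˣ) (1 : W →* ℂˣ)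
      rw [if_pos rfl] at h3
      exact h3
    rw [h2] at h1
    exact_mod_cast h1.symm
  -- the inner products
  have hE : ∀ l m : W →* ℂˣ, ((∑ χ, mN χ l * mN χ m : ℕ) : ℂ) =
      (Fintype.card G : ℂ) / (Fintype.card W : ℂ) ^ 2 -
        (Fintype.card (Gam ι) : ℂ) / (Fintype.card W : ℂ) +
        ∑ α : Gam ι, if m.comp (α : MulAut W).toMonoidHom = l then (1 : ℂ) else 0 := by
    intro l m
    rw [← h.sum_mm_mul_conj l m]
    push_cast
    refine Finset.sum_congr rfl fun χ _ => ?_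
    rw [hmN, hmN, Complex.conj_natCast]
  have hNself : ∀ l : W →* ℂˣ, l ≠ 1 →
      (∑ α : Gam ι, if l.comp (α : MulAut W).toMonoidHom = l then (1 : ℂ) else 0) = 1 := by
    intro l hl
    rw [Finset.sum_eq_single (1 : Gam ι)]
    · rw [if_pos]
      ext w
      rfl
    · intro α _ hα
      rw [if_neg]
      intro h2
      apply hl
      refine h.char_eq_one α.2 ?_ l h2
      intro h3
      exact hα (Subtype.ext h3)
    · simp
  let R : (W →* ℂˣ) → (W →* ℂˣ) → Prop :=
    fun l l' => ∃ α : Gam ι, l'.comp (α : MulAut W).toMonoidHom = l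
  have hNcross : ∀ l l' : W →* ℂˣ, ¬ R l l' →
      (∑ α : Gam ι, if l'.comp (α : MulAut W).toMonoidHom = l then (1 : ℂ) else 0) = 0 := by
    intro l l' hR
    refine Finset.sum_eq_zero fun α _ => ?_
    rw [if_neg]
    intro h2
    exact hR ⟨α, h2⟩
  have hself : ∀ l l' : W →* ℂˣ, l ≠ 1 → l' ≠ 1 →
      ∑ χ, mN χ l * mN χ l = ∑ χ, mN χ l' * mN χ l' := by
    intro l l' hl hl'
    have h1 := hE l l
    have h2 := hE l' l'
    rw [hNself l hl] at h1
    rw [hNself l' hl'] at h2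
    exact_mod_cast h1.trans h2.symm
  have hcross : ∀ l l' : W →* ℂˣ, l ≠ 1 → l' ≠ 1 → ¬ R l l' →
      ∑ χ, mN χ l * mN χ l' + 1 = ∑ χ, mN χ l * mN χ l := by
    intro l l' hl _ hR
    have h1 := hE l l
    have h2 := hE l l'
    rw [hNself l hl] at h1
    rw [hNcross l l' hR] at h2
    have h3 : ((∑ χ, mN χ l * mN χ l' + 1 : ℕ) : ℂ) = ((∑ χ, mN χ l * mN χ l : ℕ) : ℂ) := by
      rw [Nat.cast_add, h1, h2]
      simp
    exact_mod_cast h3
  have hinv : ∀ l l' : W →* ℂˣ, R l l' → ∀ χ, mN χ l = mN χ l' := by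
    rintro l l' ⟨α, rfl⟩ χ
    have h1 := mm_comp (Cfsg.Agent.Lib.Char.CompleteCor.isIrr_classFunction χ.2) α.2 l'
    rw [hmN, hmN] at h1
    exact_mod_cast h1
  have hnψ : nN ψ ≠ 0 := by
    intro h0
    apply hn
    rw [hnN, h0]
    simp
  obtain ⟨hle, hme, halt⟩ := comb nN mN oneIrr (1 : W →* ℂˣ) R H1 hnone hmone hself hcross hinv ψ hψ hnψ
  -- the degree
  have hdeg : (ψ : G → ℂ) 1 = ((∑ l, mN ψ l : ℕ) : ℂ) := by
    rw [← sum_mm ι (ψ : G → ℂ)]
    push_cast
    exact Finset.sum_congr rfl fun l _ => hmN ψ l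
  set S : Finset (W →* ℂˣ) := Finset.univ.filter (fun l => mN ψ l ≠ 0) with hS
  have hsum : ∑ l, mN ψ l = S.card := by
    rw [Finset.card_eq_sum_ones, hS, Finset.sum_filter]
    refine Finset.sum_congr rfl fun l _ => ?_
    have := hle l
    split_ifs with h1
    · omega
    · omega
  refine ⟨S.card, by rw [hdeg, hsum], ?_⟩
  rcases halt with hall | hone
  · -- all nontrivial characters
    have hSe : S = Finset.univ.erase (1 : W →* ℂˣ) := by
      ext l
      rw [hS, Finset.mem_filter, Finset.mem_erase]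
      constructor
      · rintro ⟨-, h2⟩
        refine ⟨?_, Finset.mem_univ _⟩
        rintro rfl
        exact h2 hme
      · rintro ⟨h1, -⟩
        exact ⟨Finset.mem_univ _, hall l h1⟩
    rw [hSe, Finset.card_erase_of_mem (Finset.mem_univ _), Finset.card_univ, card_hom]
    have hpos : 1 ≤ Fintype.card W := Fintype.card_pos
    have : Nat.Coprime (Fintype.card W - 1 + 1) (Fintype.card W - 1) := by simp
    rw [Nat.sub_add_cancel hpos] at this
    exact this.symm
  · -- a single orbit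
    have hSne : S.Nonempty := by
      by_contra hne
      rw [Finset.not_nonempty_iff_eq_empty] at hne
      rw [hne, Finset.card_empty] at hsum
      rw [hsum] at hdeg
      exact Cfsg.Agent.Lib.Char.Ortho.irr_apply_one_ne_zero ψ.2 (by simpa using hdeg)
    obtain ⟨l₀, hl₀⟩ := hSne
    have hl₀' : mN ψ l₀ ≠ 0 := (Finset.mem_filter.1 hl₀).2
    have hl₀1 : l₀ ≠ 1 := by
      rintro rfl
      exact hl₀' hme
    have hSim : S = Finset.univ.image
        (fun α : Gam ι => l₀.comp (α : MulAut W).toMonoidHom) := by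
      ext l
      rw [Finset.mem_image, hS, Finset.mem_filter]
      constructor
      · rintro ⟨-, h2⟩
        obtain ⟨α, hα⟩ := hone l l₀ h2 hl₀'
        exact ⟨α, Finset.mem_univ _, hα⟩
      · rintro ⟨α, -, rfl⟩
        refine ⟨Finset.mem_univ _, ?_⟩
        rw [hinv _ l₀ ⟨α, rfl⟩ ψ]
        exact hl₀'
    rw [hSim, Finset.card_image_of_injective, Finset.card_univ]
    · exact coprime_gam h
    · intro α β hab
      have h1 : (l₀.comp ((α : MulAut W) * (β : MulAut W)⁻¹).toMonoidHom) = l₀ := by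
        ext w
        have h2 := DFunLike.congr_fun hab ((β : MulAut W)⁻¹ w)
        have h3 : (β : MulAut W) ((β : MulAut W)⁻¹ w) = w := by
          rw [← MulAut.mul_apply, mul_inv_cancel, MulAut.one_apply]
        simp only [MonoidHom.comp_apply] at h2
        show ((l₀ ((α : MulAut W) ((β : MulAut W)⁻¹ w)) : ℂˣ) : ℂ) = _
        rw [show l₀ ((α : MulAut W) ((β : MulAut W)⁻¹ w)) = l₀ ((β : MulAut W) ((β : MulAut W)⁻¹ w)) from h2, h3]
      by_contra hne
      apply hl₀1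
      refine h.char_eq_one ((Gam ι).mul_mem α.2 ((Gam ι).inv_mem β.2)) ?_ l₀ h1
      intro h3
      exact hne (Subtype.ext (mul_inv_eq_one.1 h3))

end Main2

end Cfsg.Agent.Lib.Rank3.CC2
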